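import Cfsg.Agent.Lib.SylowNormalInf
import Cfsg.Agent.S0581

/-!
# Commuting Sylow subgroups (S4884, the reduction; helper381)

`Cm p q G` : some Sylow `p`- and some Sylow `q`-subgroup of `G` commute.

* (C1) `Cm.map`, `Cm.quot`, `Cm.normal`, `Cm.congr`; `Cm.exists_right` (for every Sylow `p`-subgroup).
* `exists_norm` : if `Cm p q (G ⧸ N)` and `P` centralises a Sylow `q`-subgroup of `N`, some Sylow `q`-subgroup `Q` of
  `G` normalises `P`, and `[P, Q] ≤ N`; `forall_norm` : `[P, Q] ≤ N` for all `Q ≤ N_G(P)`.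
* (C2) `Cm.of_coprime`, (C3) `Cm.of_inf`, (C4) `Cm.of_pgroup`, (C5) `Cm.of_not_dvd`.
* (W) `Cm.hall`, `Cm.nilpotent_of_pi`, `Cm.comm_of_pi`.
-/

set_option autoImplicit false

namespace Cfsg.Agent.H381.PB

open Subgroup Pointwise Cfsg.Agent.Lib.SylowNormalInf

universe u v

/-- some Sylow `p`- and some Sylow `q`-subgroup commute -/
def Cm (p q : ℕ) (G : Type u) [Group G] : Prop :=
  ∃ (P : Sylow p G) (Q : Sylow q G), ∀ x ∈ (P : Subgroup G), ∀ y ∈ (Q : Subgroup G), x * y = y * x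

section

variable {p q : ℕ} {G : Type u} [Group G]

theorem Cm.symm (h : Cm p q G) : Cm q p G := by
  obtain ⟨P, Q, h⟩ := h
  exact ⟨Q, P, fun y hy x hx => (h x hx y hy).symm⟩

end

variable {p q : ℕ} [hp : Fact p.Prime] [hq : Fact q.Prime] {G : Type u} [Group G] [Finite G]

omit hp [Finite G] in
theorem mem_smul_iff {g x : G} {P : Sylow p G} : x ∈ ((g • P : Sylow p G) : Subgroup G) ↔ g⁻¹ * x * g ∈ (P : Subgroup G) := by
  rw [Sylow.coe_subgroup_smul, mem_pointwise_smul_iff_inv_smul_mem, ← map_inv, MulAut.smul_def, MulAut.conj_apply, inv_inv]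

omit hq in
/-- for every Sylow `p`-subgroup -/
theorem Cm.exists_right (h : Cm p q G) (P : Sylow p G) :
    ∃ Q : Sylow q G, ∀ x ∈ (P : Subgroup G), ∀ y ∈ (Q : Subgroup G), x * y = y * x := by
  obtain ⟨P0, Q0, h⟩ := h
  obtain ⟨g, rfl⟩ := MulAction.exists_smul_eq G P0 P
  refine ⟨g • Q0, ?_⟩
  rintro _ ⟨x, hx, rfl⟩ _ ⟨y, hy, rfl⟩
  have h1 := h x hx y hy
  show g * x * g⁻¹ * (g * y * g⁻¹) = g * y * g⁻¹ * (g * x * g⁻¹)
  have e1 : g * x * g⁻¹ * (g * y * g⁻¹) = g * (x * y) * g⁻¹ := by group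
  have e2 : g * y * g⁻¹ * (g * x * g⁻¹) = g * (y * x) * g⁻¹ := by group
  rw [e1, e2, h1]

/-- (C1) -/
theorem Cm.map {H : Type v} [Group H] (h : Cm p q G) (f : G →* H) (hf : Function.Surjective f) : Cm p q H := by
  obtain ⟨P, Q, h⟩ := h
  refine ⟨P.mapSurjective hf, Q.mapSurjective hf, ?_⟩
  rintro _ ⟨x, hx, rfl⟩ _ ⟨y, hy, rfl⟩
  rw [← map_mul, h x hx y hy, map_mul]

/-- (C1) quotients -/
theorem Cm.quot (h : Cm p q G) (N : Subgroup G) [N.Normal] : Cm p q (G ⧸ N) :=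
  h.map (QuotientGroup.mk' N) (QuotientGroup.mk'_surjective N)

theorem Cm.congr {H : Type v} [Group H] (e : G ≃* H) (h : Cm p q G) : Cm p q H := h.map e.toMonoidHom e.surjective

/-- (C1) normal subgroups -/
theorem Cm.normal (h : Cm p q G) (N : Subgroup G) [N.Normal] : Cm p q N := by
  obtain ⟨P, Q, h⟩ := h
  refine ⟨(isPGroup_subgroupOf P N).toSylow (not_dvd_relIndex P N),
    (isPGroup_subgroupOf Q N).toSylow (not_dvd_relIndex Q N), ?_⟩
  intro x hx y hy
  exact Subtype.ext (h x hx y hy)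

/-- **the main lemma** -/
theorem exists_norm (P : Sylow p G) (N : Subgroup G) [N.Normal] (h : Cm p q (G ⧸ N))
    (hN : ∃ R : Sylow q N, ∀ x ∈ (P : Subgroup G), ∀ y ∈ (R : Subgroup N), x * (y : G) = y * x) :
    ∃ Q : Sylow q G, (Q : Subgroup G) ≤ normalizer ((P : Subgroup G) : Set G) ∧
      ∀ x ∈ (P : Subgroup G), ∀ y ∈ (Q : Subgroup G), y * x * y⁻¹ * x⁻¹ ∈ N := by
  set π := QuotientGroup.mk' N with hπ
  have hπs := QuotientGroup.mk'_surjective N
  set C : Subgroup G := (centralizer (((P : Subgroup G).map π : Subgroup (G ⧸ N)) : Set (G ⧸ N))).comap π with hC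
  have hmC : ∀ g, g ∈ C ↔ ∀ x ∈ (P : Subgroup G), g * x * g⁻¹ * x⁻¹ ∈ N := by
    intro g
    rw [hC, mem_comap, mem_centralizer_iff]
    constructor
    · intro h1 x hx
      have h2 := h1 (π x) ⟨x, hx, rfl⟩
      rw [← QuotientGroup.eq_one_iff]
      have h3 : π (g * x * g⁻¹ * x⁻¹) = π g * π x * (π g)⁻¹ * (π x)⁻¹ := by simp
      have h4 : ((g * x * g⁻¹ * x⁻¹ : G) : G ⧸ N) = π (g * x * g⁻¹ * x⁻¹) := rfl
      rw [h4, h3, ← h2]
      group
    · rintro h1 _ ⟨x, hx, rfl⟩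
      have h2 := h1 x hx
      rw [← QuotientGroup.eq_one_iff] at h2
      have h3 : ((g * x * g⁻¹ * x⁻¹ : G) : G ⧸ N) = π g * π x * (π g)⁻¹ * (π x)⁻¹ := by
        show π (g * x * g⁻¹ * x⁻¹) = _
        simp
      rw [h3] at h2
      have h4 : π g * π x = π x * π g := by
        calc π g * π x = (π g * π x * (π g)⁻¹ * (π x)⁻¹) * (π x * π g) := by group
          _ = π x * π g := by rw [h2, one_mul]
      exact h4.symm
  have hNC : N ≤ C := by
    intro n hn
    rw [hmC]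
    intro x hx
    have e : n * x * n⁻¹ * x⁻¹ = n * (x * n⁻¹ * x⁻¹) := by group
    rw [e]
    exact N.mul_mem hn (Normal.conj_mem inferInstance _ (N.inv_mem hn) x)
  set C0 : Subgroup G := normalizer ((P : Subgroup G) : Set G) ⊓ C with hC0
  -- the index of `C`
  have hi1 : ¬ q ∣ C.index := by
    rw [hC, index_comap_of_surjective _ hπs]
    obtain ⟨Q1, hQ1⟩ := h.exists_right (P.mapSurjective hπs)
    intro hd
    refine Q1.not_dvd_index (hd.trans (index_dvd_of_le ?_))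
    intro y hy
    rw [mem_centralizer_iff]
    intro x hx
    exact hQ1 x hx y hy
  -- Frattini
  have hfr : C = C0 ⊔ N := by
    apply le_antisymm
    · intro g hg
      have hle1 : (P : Subgroup G) ≤ N ⊔ P := le_sup_right
      have hle2 : ((g • P : Sylow p G) : Subgroup G) ≤ N ⊔ P := by
        rintro _ ⟨x, hx, rfl⟩
        show g * x * g⁻¹ ∈ _
        have e : g * x * g⁻¹ = (g * x * g⁻¹ * x⁻¹) * x := by group
        rw [e]
        exact mul_mem (mem_sup_left ((hmC g).1 hg x hx)) (mem_sup_right hx)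
      obtain ⟨m, hm⟩ := MulAction.exists_smul_eq ↥(N ⊔ (P : Subgroup G)) (P.subtype hle1) ((g • P).subtype hle2)
      rw [Sylow.smul_subtype] at hm
      have hm' := Sylow.subtype_injective hm
      obtain ⟨n, hn, x, hx, hnx⟩ := mem_sup_of_normal_left.1 m.2
      have hxP : x • P = P := Sylow.smul_eq_iff_mem_normalizer.2 (le_normalizer hx)
      have h1 : n • P = g • P := by
        rw [← hm']
        show n • P = (m : G) • P
        rw [← hnx, mul_smul, hxP]
      have h2 : (n⁻¹ * g) • P = P := by rw [mul_smul, ← h1, inv_smul_smul]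
      have h3 : n⁻¹ * g ∈ C0 := ⟨Sylow.smul_eq_iff_mem_normalizer.1 h2, C.mul_mem (C.inv_mem (hNC hn)) hg⟩
      have e : g = n * (n⁻¹ * g) := by group
      rw [e]
      exact mul_mem (mem_sup_right hn) (mem_sup_left h3)
    · exact sup_le inf_le_right hNC
  have hi2 : ¬ q ∣ C0.relIndex C := by
    rw [hfr, relIndex_sup_of_normal]
    obtain ⟨R, hR⟩ := hN
    intro hd
    refine R.not_dvd_index (hd.trans ?_)
    have hle : (R : Subgroup N) ≤ C0.subgroupOf N := by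
      intro y hy
      rw [mem_subgroupOf]
      refine ⟨?_, hNC y.2⟩
      show (y : G) ∈ normalizer ((P : Subgroup G) : Set G)
      rw [mem_normalizer_iff]
      intro x
      constructor
      · intro hx
        rw [← hR x hx y hy, mul_inv_cancel_right]
        exact hx
      · intro hx
        have h1 := hR _ hx y hy
        have e : x = (y : G)⁻¹ * ((y : G) * x * (y : G)⁻¹ * (y : G)) := by group
        rw [e, h1, inv_mul_cancel_left]
        exact hx
    exact index_dvd_of_le hle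
  have hi3 : ¬ q ∣ C0.index := by
    rw [← relIndex_mul_index (inf_le_right : C0 ≤ C)]
    intro hd
    rcases (hq.1.dvd_mul).1 hd with h1 | h1
    · exact hi2 h1
    · exact hi1 h1
  let Q0 : Sylow q C0 := default
  have hQ0 : ¬ q ∣ ((Q0 : Subgroup C0).map C0.subtype).index := by
    rw [index_map_subtype]
    intro hd
    rcases (hq.1.dvd_mul).1 hd with h1 | h1
    · exact Q0.not_dvd_index h1
    · exact hi3 h1
  refine ⟨(Q0.2.map C0.subtype).toSylow hQ0, ?_, ?_⟩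
  · rintro _ ⟨y, -, rfl⟩
    exact y.2.1
  · rintro x hx _ ⟨y, -, rfl⟩
    exact (hmC _).1 y.2.2 x hx

/-- all Sylow `q`-subgroups normalising `P` -/
theorem forall_norm (P : Sylow p G) (N : Subgroup G) [N.Normal] (h : Cm p q (G ⧸ N))
    (hN : ∃ R : Sylow q N, ∀ x ∈ (P : Subgroup G), ∀ y ∈ (R : Subgroup N), x * (y : G) = y * x) (Q : Sylow q G)
    (hQ : (Q : Subgroup G) ≤ normalizer ((P : Subgroup G) : Set G)) :
    ∀ x ∈ (P : Subgroup G), ∀ y ∈ (Q : Subgroup G), y * x * y⁻¹ * x⁻¹ ∈ N := by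
  obtain ⟨Q', hQ', hc⟩ := exists_norm P N h hN
  obtain ⟨g, hg⟩ := MulAction.exists_smul_eq ↥(normalizer ((P : Subgroup G) : Set G)) (Q'.subtype hQ') (Q.subtype hQ)
  rw [Sylow.smul_subtype] at hg
  have hg' := Sylow.subtype_injective hg
  intro x hx y hy
  have hy' : y ∈ (((g : G) • Q' : Sylow q G) : Subgroup G) := by
    have h1 : ((g : G) • Q' : Sylow q G) = Q := hg'
    rw [h1]; exact hy
  rw [mem_smul_iff] at hy'
  have hx' : (g : G)⁻¹ * x * g ∈ (P : Subgroup G) := by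
    have h1 := (mem_normalizer_iff.1 (inv_mem g.2) x).1 hx
    rwa [inv_inv] at h1
  have h2 := Normal.conj_mem (inferInstance : N.Normal) _ (hc _ hx' _ hy') (g : G)
  have e : (g : G) * ((g : G)⁻¹ * y * g * ((g : G)⁻¹ * x * g) * ((g : G)⁻¹ * y * g)⁻¹ * ((g : G)⁻¹ * x * g)⁻¹) * (g : G)⁻¹ =
      y * x * y⁻¹ * x⁻¹ := by group
  rwa [e] at h2

omit hp [Finite G] in
/-- a Sylow `q`-subgroup of a `q'`-group -/
theorem sylow_triv (N : Subgroup G) [Finite N] (h : ¬ q ∣ Nat.card N) (P : Subgroup G) :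
    ∃ R : Sylow q N, ∀ x ∈ P, ∀ y ∈ (R : Subgroup N), x * (y : G) = y * x := by
  refine ⟨default, ?_⟩
  intro x _ y hy
  have h1 : y = 1 := by
    obtain ⟨k, hk⟩ := (IsPGroup.iff_orderOf.1 (default : Sylow q N).isPGroup') ⟨y, hy⟩
    rw [orderOf_mk] at hk
    rcases Nat.eq_zero_or_pos k with h0 | h0
    · rw [h0, pow_zero, orderOf_eq_one_iff] at hk
      exact hk
    · exfalso
      apply h
      refine dvd_trans ?_ (orderOf_dvd_natCard y)
      rw [hk]
      exact dvd_pow_self q h0.ne'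
  rw [h1]
  simp

omit hp hq [Finite G] in
theorem comm_of_eq_one {x y : G} (h : y * x * y⁻¹ * x⁻¹ = 1) : x * y = y * x := by
  calc x * y = (y * x * y⁻¹ * x⁻¹)⁻¹ * (y * x) := by group
    _ = y * x := by rw [h, inv_one, one_mul]

/-- (C2) -/
theorem Cm.of_coprime (N : Subgroup G) [N.Normal] (h1 : ¬ p ∣ Nat.card N) (h2 : ¬ q ∣ Nat.card N)
    (h : Cm p q (G ⧸ N)) : Cm p q G := by
  obtain ⟨Q, hQ, hc⟩ := exists_norm (default : Sylow p G) N h (sylow_triv N h2 _)
  refine ⟨default, Q, fun x hx y hy => comm_of_eq_one ?_⟩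
  have h3 : y * x * y⁻¹ * x⁻¹ ∈ ((default : Sylow p G) : Subgroup G) :=
    mul_mem ((mem_normalizer_iff.1 (hQ hy) x).1 hx) (inv_mem hx)
  have h4 := hc x hx y hy
  obtain ⟨k, hk⟩ := (IsPGroup.iff_orderOf.1 (default : Sylow p G).isPGroup') ⟨_, h3⟩
  rw [orderOf_mk] at hk
  have h5 : orderOf (y * x * y⁻¹ * x⁻¹) ∣ Nat.card N := by
    rw [← orderOf_mk _ h4]
    exact orderOf_dvd_natCard _
  rcases Nat.eq_zero_or_pos k with h0 | h0
  · rw [h0, pow_zero, orderOf_eq_one_iff] at hk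
    exact hk
  · exfalso
    apply h1
    refine dvd_trans ?_ h5
    rw [hk]
    exact dvd_pow_self p h0.ne'

/-- (C3) -/
theorem Cm.of_inf (N₁ N₂ : Subgroup G) [N₁.Normal] [N₂.Normal] (h : N₁ ⊓ N₂ = ⊥) (h1 : Cm p q (G ⧸ N₁))
    (h2 : Cm p q (G ⧸ N₂)) : Cm p q G := by
  have key : ∀ (M₁ M₂ : Subgroup G) [M₁.Normal] [M₂.Normal], M₁ ⊓ M₂ = ⊥ → Cm p q (G ⧸ M₂) →
      ∃ R : Sylow q M₁, ∀ x ∈ ((default : Sylow p G) : Subgroup G), ∀ y ∈ (R : Subgroup M₁), x * (y : G) = y * x := by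
    intro M₁ M₂ _ _ hM hq2
    have hs := QuotientGroup.mk'_surjective M₂
    obtain ⟨Q1, hQ1⟩ := hq2.exists_right ((default : Sylow p G).mapSurjective hs)
    obtain ⟨Q2, rfl⟩ := Sylow.mapSurjective_surjective hs q Q1
    refine ⟨(isPGroup_subgroupOf Q2 M₁).toSylow (not_dvd_relIndex Q2 M₁), ?_⟩
    intro x hx y hy
    apply comm_of_eq_one
    rw [← mem_bot, ← hM]
    constructor
    · have e : (y : G) * x * (y : G)⁻¹ * x⁻¹ = y * (x * (y : G)⁻¹ * x⁻¹) := by group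
      rw [e]
      exact M₁.mul_mem y.2 (Normal.conj_mem inferInstance _ (M₁.inv_mem y.2) x)
    · show (y : G) * x * (y : G)⁻¹ * x⁻¹ ∈ M₂
      rw [← QuotientGroup.eq_one_iff]
      have h3 := hQ1 _ ⟨x, hx, rfl⟩ _ ⟨(y : G), hy, rfl⟩
      have h4 : (((y : G) * x * (y : G)⁻¹ * x⁻¹ : G) : G ⧸ M₂) =
          QuotientGroup.mk' M₂ y * QuotientGroup.mk' M₂ x * (QuotientGroup.mk' M₂ y)⁻¹ * (QuotientGroup.mk' M₂ x)⁻¹ := by
        simp
      rw [h4, ← h3]
      group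
  obtain ⟨Q, hQ, hc⟩ := exists_norm (default : Sylow p G) N₁ h1 (key N₁ N₂ h h2)
  have hc2 := forall_norm (default : Sylow p G) N₂ h2 (key N₂ N₁ (by rw [inf_comm]; exact h) h1) Q hQ
  refine ⟨default, Q, fun x hx y hy => comm_of_eq_one ?_⟩
  rw [← mem_bot, ← h]
  exact ⟨hc x hx y hy, hc2 x hx y hy⟩

/-- (C4) -/
theorem Cm.of_pgroup (hpq : p ≠ q) (N : Subgroup G) [N.Normal] (hN : IsPGroup p N) (h : Cm p q (G ⧸ N))
    (hc : ∃ R : Sylow q G, ∀ x ∈ N, ∀ y ∈ (R : Subgroup G), x * y = y * x) : Cm p q G := by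
  have h2 : ¬ q ∣ Nat.card N := by
    obtain ⟨k, hk⟩ := IsPGroup.iff_card.1 hN
    rw [hk]
    intro hd
    exact hpq ((Nat.prime_dvd_prime_iff_eq hq.1 hp.1).1 (hq.1.dvd_of_dvd_pow hd)).symm
  obtain ⟨Q, hQ, hc1⟩ := exists_norm (default : Sylow p G) N h (sylow_triv N h2 _)
  -- `Q` centralises `N`
  have hcQ : ∀ x ∈ N, ∀ y ∈ (Q : Subgroup G), x * y = y * x := by
    obtain ⟨R, hR⟩ := hc
    obtain ⟨g, hg⟩ := MulAction.exists_smul_eq G R Q
    intro x hx y hy
    have hy' : g⁻¹ * y * g ∈ (R : Subgroup G) := by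
      rw [← mem_smul_iff, hg]; exact hy
    have hx' : g⁻¹ * x * g ∈ N := by
      have h1 := Normal.conj_mem (inferInstance : N.Normal) _ hx g⁻¹
      rwa [inv_inv] at h1
    have h3 := hR _ hx' _ hy'
    have e1 : x * y = g * (g⁻¹ * x * g * (g⁻¹ * y * g)) * g⁻¹ := by group
    have e2 : y * x = g * (g⁻¹ * y * g * (g⁻¹ * x * g)) * g⁻¹ := by group
    rw [e1, e2, h3]
  refine ⟨default, Q, fun x hx y hy => comm_of_eq_one ?_⟩
  set n := y * x * y⁻¹ * x⁻¹ with hn
  have hnN : n ∈ N := hc1 x hx y hy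
  have hyx : y * x * y⁻¹ = n * x := by rw [hn]; group
  have hny : n * y = y * n := hcQ n hnN y hy
  have hpow : ∀ k : ℕ, y ^ k * x * (y ^ k)⁻¹ = n ^ k * x := by
    intro k
    induction k with
    | zero => simp
    | succ k ih =>
      have e : y ^ (k + 1) * x * (y ^ (k + 1))⁻¹ = y * (y ^ k * x * (y ^ k)⁻¹) * y⁻¹ := by
        rw [pow_succ' y k]
        group
      have hc3 : n ^ k * y = y * n ^ k := ((show Commute n y from hny).pow_left k)
      rw [e, ih]
      calc y * (n ^ k * x) * y⁻¹ = (y * n ^ k) * x * y⁻¹ := by group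
        _ = (n ^ k * y) * x * y⁻¹ := by rw [hc3]
        _ = n ^ k * (y * x * y⁻¹) := by group
        _ = n ^ (k + 1) * x := by rw [hyx, pow_succ]; group
  obtain ⟨k, hk⟩ := (IsPGroup.iff_orderOf.1 Q.isPGroup') ⟨y, hy⟩
  rw [orderOf_mk] at hk
  have h3 := hpow (orderOf y)
  rw [pow_orderOf_eq_one, one_mul, inv_one, mul_one] at h3
  have h4 : n ^ orderOf y = 1 := (mul_eq_right.1 h3.symm)
  obtain ⟨j, hj⟩ := (IsPGroup.iff_orderOf.1 hN) ⟨n, hnN⟩
  rw [orderOf_mk] at hj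
  have h5 : orderOf n ∣ Nat.gcd (p ^ j) (q ^ k) := by
    apply Nat.dvd_gcd
    · rw [hj]
    · rw [← hk]
      exact orderOf_dvd_of_pow_eq_one h4
  rw [Nat.Coprime.gcd_eq_one (Nat.Coprime.pow _ _ ((Nat.coprime_primes hp.1 hq.1).2 hpq)), Nat.dvd_one,
    orderOf_eq_one_iff] at h5
  exact h5

/-- (C5) -/
theorem Cm.of_not_dvd (N : Subgroup G) [N.Normal] (h2 : ¬ q ∣ Nat.card N) (h : Cm p q (G ⧸ N)) (Q : Sylow q G)
    (hc : ∃ P₀ : Sylow p N, ∀ y ∈ (Q : Subgroup G), ∀ x ∈ (P₀ : Subgroup N), y * (x : G) = x * y) : Cm p q G := by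
  obtain ⟨P, hP, hc1⟩ := exists_norm Q N h.symm hc
  refine ⟨P, Q, fun x hx y hy => (comm_of_eq_one ?_).symm⟩
  have h3 : x * y * x⁻¹ * y⁻¹ ∈ (Q : Subgroup G) :=
    mul_mem ((mem_normalizer_iff.1 (hP hx) y).1 hy) (inv_mem hy)
  have h4 := hc1 y hy x hx
  obtain ⟨k, hk⟩ := (IsPGroup.iff_orderOf.1 Q.isPGroup') ⟨_, h3⟩
  rw [orderOf_mk] at hk
  have h5 : orderOf (x * y * x⁻¹ * y⁻¹) ∣ Nat.card N := by
    rw [← orderOf_mk _ h4]
    exact orderOf_dvd_natCard _
  rcases Nat.eq_zero_or_pos k with h0 | h0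
  · rw [h0, pow_zero, orderOf_eq_one_iff] at hk
    exact hk
  · exfalso
    apply h2
    refine dvd_trans ?_ h5
    rw [hk]
    exact dvd_pow_self q h0.ne'

/-- (W) the Hall subgroup -/
theorem Cm.hall (hpq : p ≠ q) {P : Sylow p G} {Q : Sylow q G} (h : ∀ x ∈ (P : Subgroup G), ∀ y ∈ (Q : Subgroup G), x * y = y * x) :
    Group.IsNilpotent ↥((P : Subgroup G) ⊔ Q) ∧ Nat.card ↥((P : Subgroup G) ⊔ Q) = Nat.card P * Nat.card Q ∧
      (Nat.card ↥((P : Subgroup G) ⊔ Q)).Coprime ((P : Subgroup G) ⊔ Q).index := by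
  have hcomm : ∀ (x : (P : Subgroup G)) (y : (Q : Subgroup G)), Commute ((P : Subgroup G).subtype x) ((Q : Subgroup G).subtype y) :=
    fun x y => h x x.2 y y.2
  have hr : (MonoidHom.noncommCoprod (P : Subgroup G).subtype (Q : Subgroup G).subtype hcomm).range = (P : Subgroup G) ⊔ Q := by
    rw [MonoidHom.noncommCoprod_range, range_subtype, range_subtype]
  have hdis : Disjoint (P : Subgroup G) Q := IsPGroup.disjoint_of_ne p q hpq _ _ P.isPGroup' Q.isPGroup'
  have hinj : Function.Injective (MonoidHom.noncommCoprod (P : Subgroup G).subtype (Q : Subgroup G).subtype hcomm) := by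
    rw [MonoidHom.noncommCoprod_injective]
    refine ⟨subtype_injective _, subtype_injective _, ?_⟩
    rw [range_subtype, range_subtype]
    exact hdis
  have hP : Group.IsNilpotent (P : Subgroup G) := P.isPGroup'.isNilpotent
  have hQ : Group.IsNilpotent (Q : Subgroup G) := Q.isPGroup'.isNilpotent
  have hnil : Group.IsNilpotent (↥(P : Subgroup G) × ↥(Q : Subgroup G)) := inferInstance
  have e := MonoidHom.ofInjective hinj
  have hcard : Nat.card ↥((P : Subgroup G) ⊔ Q) = Nat.card P * Nat.card Q := by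
    rw [← hr, ← Nat.card_congr e.toEquiv, Nat.card_prod]
  refine ⟨?_, hcard, ?_⟩
  · rw [← hr]
    exact Group.nilpotent_of_mulEquiv e
  · rw [hcard]
    obtain ⟨a, ha⟩ := IsPGroup.iff_card.1 P.isPGroup'
    obtain ⟨b, hb⟩ := IsPGroup.iff_card.1 Q.isPGroup'
    rw [ha, hb]
    refine Nat.Coprime.mul_left (Nat.Coprime.pow_left _ ?_) (Nat.Coprime.pow_left _ ?_)
    · rw [Nat.Prime.coprime_iff_not_dvd hp.1]
      intro hd
      exact P.not_dvd_index (hd.trans (index_dvd_of_le le_sup_left))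
    · rw [Nat.Prime.coprime_iff_not_dvd hq.1]
      intro hd
      exact Q.not_dvd_index (hd.trans (index_dvd_of_le le_sup_right))

/-- (W) Wielandt -/
theorem exists_le_conj (hpq : p ≠ q) {P : Sylow p G} {Q : Sylow q G}
    (h : ∀ x ∈ (P : Subgroup G), ∀ y ∈ (Q : Subgroup G), x * y = y * x) (K : Subgroup G)
    (hK : ∀ r : ℕ, r.Prime → r ∣ Nat.card K → r = p ∨ r = q) : ∃ g : G, K ≤ MulAut.conj g • ((P : Subgroup G) ⊔ Q) := by
  obtain ⟨h1, h2, h3⟩ := Cm.hall hpq h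
  refine Cfsg.Agent.S0581.result _ K h1 h3 ?_
  intro r hr hrK
  have hrG : r ∣ Nat.card G := hrK.trans (card_subgroup_dvd_card K)
  have key : ∀ (s : ℕ) [Fact s.Prime] (R : Sylow s G), s ∣ Nat.card G → s ∣ Nat.card R := by
    intro s hs R hd
    have h4 := (R : Subgroup G).card_mul_index
    rw [← h4] at hd
    exact (hs.1.dvd_mul.1 hd).resolve_right R.not_dvd_index
  rw [h2]
  rcases hK r hr hrK with rfl | rfl
  · exact (key _ P hrG).mul_right _
  · exact (key _ Q hrG).mul_left _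

/-- (W) -/
theorem Cm.nilpotent_of_pi (hpq : p ≠ q) (h : Cm p q G) (K : Subgroup G)
    (hK : ∀ r : ℕ, r.Prime → r ∣ Nat.card K → r = p ∨ r = q) : Group.IsNilpotent K := by
  obtain ⟨P, Q, h⟩ := h
  obtain ⟨g, hg⟩ := exists_le_conj hpq h K hK
  have h1 := (Cm.hall hpq h).1
  have h2 : Group.IsNilpotent ↥(MulAut.conj g • ((P : Subgroup G) ⊔ Q)) :=
    Group.nilpotent_of_mulEquiv (Subgroup.equivSMul (MulAut.conj g) ((P : Subgroup G) ⊔ Q))
  refine Subgroup.isNilpotent_of_ker_le_center (inclusion hg) ?_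
  rw [(MonoidHom.ker_eq_bot_iff _).2 (inclusion_injective hg)]
  exact bot_le

/-- (W) the `p`-elements and the `q`-elements of a `{p,q}`-subgroup commute -/
theorem Cm.comm_of_pi (hpq : p ≠ q) (h : Cm p q G) (K : Subgroup G)
    (hK : ∀ r : ℕ, r.Prime → r ∣ Nat.card K → r = p ∨ r = q) {x y : G} (hx : x ∈ K) (hy : y ∈ K) {a b : ℕ}
    (hxa : orderOf x = p ^ a) (hyb : orderOf y = q ^ b) : x * y = y * x := by
  obtain ⟨P, Q, h⟩ := h
  obtain ⟨g, hg⟩ := exists_le_conj hpq h K hK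
  obtain ⟨h1, h2, h3⟩ := Cm.hall hpq h
  -- an element of `P ⊔ Q` is a product
  have hprod : ∀ z ∈ (P : Subgroup G) ⊔ Q, ∃ u ∈ (P : Subgroup G), ∃ w ∈ (Q : Subgroup G), z = u * w := by
    have hcomm : ∀ (x : (P : Subgroup G)) (y : (Q : Subgroup G)),
        Commute ((P : Subgroup G).subtype x) ((Q : Subgroup G).subtype y) := fun x y => h x x.2 y y.2
    have hle : ∀ z ∈ (P : Subgroup G) ⊔ Q,
        z ∈ (MonoidHom.noncommCoprod (P : Subgroup G).subtype (Q : Subgroup G).subtype hcomm).range := by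
      intro z hz
      rw [MonoidHom.noncommCoprod_range, range_subtype, range_subtype]
      exact hz
    intro z hz
    obtain ⟨⟨u, w⟩, rfl⟩ := hle z hz
    exact ⟨u, u.2, w, w.2, rfl⟩
  have hPe : ∀ z ∈ (P : Subgroup G) ⊔ Q, ∀ c : ℕ, orderOf z = p ^ c → z ∈ (P : Subgroup G) := by
    intro z hz c hc
    obtain ⟨u, hu, w, hw, rfl⟩ := hprod z hz
    have huw : Commute u w := h u hu w hw
    obtain ⟨k, hk⟩ := (IsPGroup.iff_orderOf.1 P.isPGroup') ⟨u, hu⟩
    obtain ⟨l, hl⟩ := (IsPGroup.iff_orderOf.1 Q.isPGroup') ⟨w, hw⟩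
    rw [orderOf_mk] at hk hl
    have hco : (orderOf u).Coprime (orderOf w) := by
      rw [hk, hl]
      exact Nat.Coprime.pow _ _ ((Nat.coprime_primes hp.1 hq.1).2 hpq)
    have ho := huw.orderOf_mul_eq_mul_orderOf_of_coprime hco
    rw [hc, hk, hl] at ho
    have h5 : q ^ l ∣ p ^ c := ⟨p ^ k, by rw [ho, mul_comm]⟩
    have h6 : w = 1 := by
      rw [← orderOf_eq_one_iff, hl]
      exact Nat.Coprime.eq_one_of_dvd (Nat.Coprime.pow _ _ ((Nat.coprime_primes hq.1 hp.1).2 hpq.symm)) h5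
    rw [h6, mul_one]
    exact hu
  have hQe : ∀ z ∈ (P : Subgroup G) ⊔ Q, ∀ c : ℕ, orderOf z = q ^ c → z ∈ (Q : Subgroup G) := by
    intro z hz c hc
    obtain ⟨u, hu, w, hw, rfl⟩ := hprod z hz
    have huw : Commute u w := h u hu w hw
    obtain ⟨k, hk⟩ := (IsPGroup.iff_orderOf.1 P.isPGroup') ⟨u, hu⟩
    obtain ⟨l, hl⟩ := (IsPGroup.iff_orderOf.1 Q.isPGroup') ⟨w, hw⟩
    rw [orderOf_mk] at hk hl
    have hco : (orderOf u).Coprime (orderOf w) := by
      rw [hk, hl]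
      exact Nat.Coprime.pow _ _ ((Nat.coprime_primes hp.1 hq.1).2 hpq)
    have ho := huw.orderOf_mul_eq_mul_orderOf_of_coprime hco
    rw [hc, hk, hl] at ho
    have h5 : p ^ k ∣ q ^ c := ⟨q ^ l, ho⟩
    have h6 : u = 1 := by
      rw [← orderOf_eq_one_iff, hk]
      exact Nat.Coprime.eq_one_of_dvd (Nat.Coprime.pow _ _ ((Nat.coprime_primes hp.1 hq.1).2 hpq)) h5
    rw [h6, one_mul]
    exact hw
  have hmem : ∀ z ∈ K, g⁻¹ * z * g ∈ (P : Subgroup G) ⊔ Q := by
    intro z hz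
    have h4 := hg hz
    rw [mem_pointwise_smul_iff_inv_smul_mem, ← map_inv, MulAut.smul_def, MulAut.conj_apply, inv_inv] at h4
    exact h4
  have hord : ∀ z : G, orderOf (g⁻¹ * z * g) = orderOf z := by
    intro z
    have e : g⁻¹ * z * g = MulAut.conj g⁻¹ z := by rw [MulAut.conj_apply, inv_inv]
    rw [e]
    exact orderOf_injective (MulAut.conj g⁻¹).toMonoidHom (MulAut.conj g⁻¹).injective z
  have h7 := h _ (hPe _ (hmem x hx) a (by rw [hord, hxa])) _ (hQe _ (hmem y hy) b (by rw [hord, hyb]))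
  have e1 : x * y = g * (g⁻¹ * x * g * (g⁻¹ * y * g)) * g⁻¹ := by group
  have e2 : y * x = g * (g⁻¹ * y * g * (g⁻¹ * x * g)) * g⁻¹ := by group
  rw [e1, e2, h7]

/-! ### `M = N C_G(P_N)` -/

omit hp [Finite G] in
theorem centralizer_conj_le (P0 : Subgroup G) {g : G} (hg : g ∈ normalizer (P0 : Set G)) {x : G}
    (hx : x ∈ centralizer (P0 : Set G)) : g * x * g⁻¹ ∈ centralizer (P0 : Set G) := by
  rw [mem_centralizer_iff] at hx ⊢
  intro y hy
  have hy' : g⁻¹ * y * g ∈ P0 := by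
    have h1 := (mem_normalizer_iff.1 (inv_mem hg) y).1 hy
    rwa [inv_inv] at h1
  have h2 := hx _ hy'
  calc y * (g * x * g⁻¹) = g * ((g⁻¹ * y * g) * x) * g⁻¹ := by group
    _ = g * (x * (g⁻¹ * y * g)) * g⁻¹ := by rw [h2]
    _ = g * x * g⁻¹ * y := by group

/-- `N C_G(P_N)` is normal (Frattini) -/
theorem sup_centralizer_normal (N : Subgroup G) [N.Normal] (P0 : Sylow p N) :
    (N ⊔ centralizer (((P0 : Subgroup N).map N.subtype : Subgroup G) : Set G)).Normal := by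
  set P1 : Subgroup G := (P0 : Subgroup N).map N.subtype with hP1
  set M : Subgroup G := N ⊔ centralizer (P1 : Set G) with hM
  have h1 : normalizer (P1 : Set G) ⊔ N = ⊤ := Sylow.normalizer_sup_eq_top P0
  rw [← normalizer_eq_top_iff, eq_top_iff, ← h1]
  refine sup_le ?_ (le_sup_left.trans (le_normalizer (H := M)))
  intro g hg
  have key : ∀ g ∈ normalizer (P1 : Set G), ∀ x ∈ M, g * x * g⁻¹ ∈ M := by
    intro g hg x hx
    obtain ⟨n, hn, c, hc, rfl⟩ := mem_sup_of_normal_left.1 hx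
    have e : g * (n * c) * g⁻¹ = (g * n * g⁻¹) * (g * c * g⁻¹) := by group
    rw [e]
    exact mul_mem (mem_sup_left (Normal.conj_mem inferInstance n hn g))
      (mem_sup_right (centralizer_conj_le P1 hg hc))
  rw [mem_normalizer_iff]
  intro x
  constructor
  · exact key g hg x
  · intro hx
    have h2 := key g⁻¹ (inv_mem hg) _ hx
    have e : g⁻¹ * (g * x * g⁻¹) * g⁻¹⁻¹ = x := by group
    rwa [e] at h2

/-- a Sylow `q`-subgroup of `G` centralises `P_N` if `q` divides neither `|N|` nor `|G : N C_G(P_N)|` -/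
theorem exists_sylow_centralizing (N : Subgroup G) [N.Normal] (h : ¬ q ∣ Nat.card N) (P1 : Subgroup G)
    (hM : ¬ q ∣ (N ⊔ centralizer (P1 : Set G)).index) :
    ∃ Q : Sylow q G, ∀ y ∈ (Q : Subgroup G), ∀ x ∈ P1, y * x = x * y := by
  set C : Subgroup G := centralizer (P1 : Set G) with hC
  have h1 : ¬ q ∣ C.index := by
    rw [← relIndex_mul_index (le_sup_right : C ≤ N ⊔ C), sup_comm, relIndex_sup_of_normal, sup_comm]
    intro hd
    rcases (hq.1.dvd_mul).1 hd with h2 | h2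
    · apply h
      refine h2.trans ?_
      rw [← card_inf_mul_relIndex C N]
      exact dvd_mul_left _ _
    · exact hM h2
  let Q0 : Sylow q C := default
  have hQ0 : ¬ q ∣ ((Q0 : Subgroup C).map C.subtype).index := by
    rw [index_map_subtype]
    intro hd
    rcases (hq.1.dvd_mul).1 hd with h2 | h2
    · exact Q0.not_dvd_index h2
    · exact h1 h2
  refine ⟨(Q0.2.map C.subtype).toSylow hQ0, ?_⟩
  rintro _ ⟨y, -, rfl⟩ x hx
  exact (mem_centralizer_iff.1 y.2 x hx).symm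

/-- (C5) in the form used in the reduction -/
theorem Cm.of_index (N : Subgroup G) [N.Normal] (h2 : ¬ q ∣ Nat.card N) (h : Cm p q (G ⧸ N)) (P0 : Sylow p N)
    (hM : ¬ q ∣ (N ⊔ centralizer (((P0 : Subgroup N).map N.subtype : Subgroup G) : Set G)).index) : Cm p q G := by
  obtain ⟨Q, hQ⟩ := exists_sylow_centralizing N h2 _ hM
  exact Cm.of_not_dvd N h2 h Q ⟨P0, fun y hy x hx => hQ y hy x ⟨x, hx, rfl⟩⟩

end Cfsg.Agent.H381.PB
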